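import Cfsg.Agent.H533.Wf.Kills

/-!
# Two criteria for the rows of S3826 (helper71, task 4034)

* `WfRow.congr'` : `K ≃* K'` in different universes;
* `WfRow.of_local` : one `QS` subgroup `L ≠ ⊤` of the simple group `T` such that every automorphism of order `p` has a
  conjugate under `Inn T` which normalises and does not centralise `L`;
* `WfRow.of_one` : the automorphisms of order `p` are inner and any two elements `x, y` of order `p` satisfy
  `y ^ j ~ x` for some `j`.
-/

set_option autoImplicit false
set_option linter.unusedSectionVars false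

namespace Cfsg.Agent.H71.Wf

universe u v w

open Subgroup Cfsg Cfsg.Agent.H533.T5 Cfsg.Agent.H533.Wf

theorem WfRow.congr' {p : ℕ} {K : Type v} [Group K] {K' : Type w} [Group K'] (e : K ≃* K')
    (hK : WfRow.{u, w} p K') : WfRow.{u, v} p K := by
  rintro G _ _ S C D h ⟨f⟩
  exact hK G S C D h ⟨f.trans e⟩

section QS

variable {G : Type u} [Group G] {H : Type v} [Group H]

/-- `QS` is invariant under injective homomorphisms -/
theorem QS.map {L : Subgroup G} (hL : QS L) {f : G →* H} (hf : Function.Injective f) : QS (L.map f) := by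
  refine ⟨?_, ?_, ?_⟩
  · rw [← Subgroup.map_commutator, hL.perfect]
  · intro h
    rw [Subgroup.map_eq_bot_iff_of_injective _ hf] at h
    exact hL.ne h
  · intro N hN hn
    have h1 : N.comap f ≤ L := by
      intro x hx
      obtain ⟨y, hy, hyx⟩ := hN hx
      rwa [← hf hyx]
    have h2 : L ≤ Subgroup.normalizer ((N.comap f : Subgroup G) : Set G) := by
      intro l hl
      have h3 := hn (Subgroup.mem_map_of_mem f hl)
      rw [Subgroup.mem_normalizer_iff] at h3 ⊢
      intro x
      rw [Subgroup.mem_comap, Subgroup.mem_comap, map_mul, map_mul, map_inv]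
      exact h3 (f x)
    have h4 : (N.comap f).map f = N := by
      rw [Subgroup.map_comap_eq, inf_eq_right]
      rintro x hx
      obtain ⟨y, -, hyx⟩ := hN hx
      exact ⟨y, hyx⟩
    rcases hL.norm _ h1 h2 with h | h
    · left
      rw [← h4, h]
    · right
      intro x hx
      rw [← h4] at hx
      obtain ⟨y, hy, rfl⟩ := hx
      rw [Subgroup.mem_centralizer_iff]
      rintro _ ⟨l, hl, rfl⟩
      rw [← map_mul, ← map_mul, (Subgroup.mem_centralizer_iff.mp (h hy)) l hl]

end QS

section crit

variable {p : ℕ} [hp : Fact p.Prime] {T : Type v} [Group T] [Finite T]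

/-- the automorphism of `T` induced by `c` -/
def ind {G : Type u} [Group G] {S : Subgroup G} [S.Normal] (e : S ≃* T) (c : G) : MulAut T :=
  (e.symm.trans (MulAut.conjNormal c)).trans e

theorem ind_apply {G : Type u} [Group G] {S : Subgroup G} [S.Normal] (e : S ≃* T) (c : G) (t : T) :
    ((e.symm (ind e c t) : S) : G) = c * (e.symm t : S) * c⁻¹ := by
  unfold ind
  simp [MulAut.conjNormal_apply]

theorem ind_mul {G : Type u} [Group G] {S : Subgroup G} [S.Normal] (e : S ≃* T) (a b : G) :
    ind e (a * b) = ind e a * ind e b := by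
  ext t
  apply e.symm.injective
  apply Subtype.ext
  rw [ind_apply, MulAut.mul_apply, ind_apply, ind_apply]
  group

theorem ind_one {G : Type u} [Group G] {S : Subgroup G} [S.Normal] (e : S ≃* T) : ind e 1 = 1 := by
  ext t
  apply e.symm.injective
  apply Subtype.ext
  rw [ind_apply]
  simp

/-- the homomorphism -/
def indHom {G : Type u} [Group G] {S : Subgroup G} [S.Normal] (e : S ≃* T) : G →* MulAut T where
  toFun := ind e
  map_one' := ind_one e
  map_mul' := ind_mul e

theorem indHom_injective {G : Type u} [Group G] {S : Subgroup G} [S.Normal] (e : S ≃* T)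
    (hc : Subgroup.centralizer (S : Set G) = ⊥) : Function.Injective (indHom e) := by
  rw [injective_iff_map_eq_one]
  intro c h
  have h1 : c ∈ Subgroup.centralizer (S : Set G) := by
    rw [Subgroup.mem_centralizer_iff]
    intro s hs
    have h2 := ind_apply e c (e ⟨s, hs⟩)
    have h3 : ind e c = 1 := h
    rw [h3, MulAut.one_apply, e.symm_apply_apply] at h2
    have h4 : s = c * s * c⁻¹ := h2
    calc s * c = (c * s * c⁻¹) * c := by rw [← h4]
      _ = c * s := by group
  rwa [hc, Subgroup.mem_bot] at h1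

theorem indHom_mem {G : Type u} [Group G] {S : Subgroup G} [S.Normal] (e : S ≃* T) (t : T) :
    indHom e ((e.symm t : S) : G) = MulAut.conj t := by
  ext x
  apply e.symm.injective
  apply Subtype.ext
  have h := ind_apply e ((e.symm t : S) : G) x
  have h0 : indHom e ((e.symm t : S) : G) x = ind e ((e.symm t : S) : G) x := rfl
  rw [h0, h, MulAut.conj_apply, map_mul, map_mul, map_inv]
  rfl

/-- **Local criterion.** -/
theorem WfRow.of_local [hT : IsSimpleGroup T] {L : Subgroup T} (hL : QS L) (hne : L ≠ ⊤)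
    (H : ∀ x : MulAut T, orderOf x = p → ∃ g : T,
      (∀ l ∈ L, (MulAut.conj g * x * (MulAut.conj g)⁻¹) l ∈ L) ∧
        ∃ l ∈ L, (MulAut.conj g * x * (MulAut.conj g)⁻¹) l ≠ l) : WfRow.{u, v} p T := by
  rintro G _ _ S C D h ⟨e⟩
  have hSn := h.normal
  have hinj := indHom_injective e h.cent
  set f : T →* G := S.subtype.comp e.symm.toMonoidHom with hf
  have hfi : Function.Injective f := S.subtype_injective.comp e.symm.injective
  have hfa : ∀ t : T, f t = ((e.symm t : S) : G) := fun t => rfl
  have hN : Subgroup.normalizer ((L.map f : Subgroup G) : Set G) ≠ ⊤ := by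
    intro htop
    have hn : (L.map f).Normal := Subgroup.normalizer_eq_top_iff.mp htop
    have hLn : L.Normal := by
      refine ⟨fun l hl t => ?_⟩
      obtain ⟨l', hl', hll⟩ := hn.conj_mem (f l) (Subgroup.mem_map_of_mem f hl) (f t)
      rw [← map_inv, ← map_mul, ← map_mul] at hll
      rwa [← hfi hll]
    rcases hLn.eq_bot_or_eq_top with h1 | h1
    · exact hL.ne h1
    · exact hne h1
  have key : ∀ (E : Set G), (∀ g : G, ∀ c ∈ E, g * c * g⁻¹ ∈ E) → (∀ c ∈ E, orderOf c = p) → E.Nonempty →
      ∃ c ∈ E, c ∈ Subgroup.normalizer ((L.map f : Subgroup G) : Set G) ∧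
        c ∉ Subgroup.centralizer ((L.map f : Subgroup G) : Set G) := by
    rintro E hE hEo ⟨c, hc⟩
    obtain ⟨g, h1, l, hl, h2⟩ := H (indHom e c) (by rw [orderOf_injective _ hinj]; exact hEo c hc)
    have hy : indHom e (f g * c * (f g)⁻¹) = MulAut.conj g * indHom e c * (MulAut.conj g)⁻¹ := by
      rw [map_mul, map_mul, map_inv, hfa, indHom_mem]
    have hact : ∀ t : T, (f g * c * (f g)⁻¹) * f t * (f g * c * (f g)⁻¹)⁻¹ =
        f ((MulAut.conj g * indHom e c * (MulAut.conj g)⁻¹) t) := by
      intro t
      rw [← hy]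
      exact (ind_apply e (f g * c * (f g)⁻¹) t).symm
    refine ⟨f g * c * (f g)⁻¹, hE _ _ hc, ?_, ?_⟩
    · rw [Subgroup.mem_normalizer_iff_map_conj_eq]
      refine Subgroup.eq_of_le_of_card_ge ?_ (le_of_eq ?_)
      · rintro _ ⟨_, ⟨t, ht, rfl⟩, rfl⟩
        have h3 := hact t
        show (f g * c * (f g)⁻¹) * f t * (f g * c * (f g)⁻¹)⁻¹ ∈ L.map f
        rw [h3]
        exact Subgroup.mem_map_of_mem f (h1 t ht)
      · exact (Subgroup.card_map_of_injective (MulAut.conj (f g * c * (f g)⁻¹)).injective).symm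
    · intro h3
      apply h2
      apply hfi
      rw [← hact l]
      have h4 := (Subgroup.mem_centralizer_iff.mp h3) (f l) (Subgroup.mem_map_of_mem f hl)
      rw [← h4]
      group
  obtain ⟨c, hc, hc1, hc2⟩ := key C h.conjC h.ordC h.neC
  obtain ⟨d, hd, hd1, hd2⟩ := key D h.conjD h.ordD h.neD
  exact h.false_of_component hN (QS.map hL hfi) hc hd hc1 hd1 hc2 hd2

/-- **One class of subgroups of order `p`, all automorphisms of order `p` inner.** -/
theorem WfRow.of_one (hc : Subgroup.center T = ⊥) (hinn : ∀ x : MulAut T, orderOf x = p → ∃ a, x = MulAut.conj a)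
    (hone : ∀ a b : T, orderOf a = p → orderOf b = p → ∃ j : ℕ, IsConj (b ^ j) a) : WfRow.{u, v} p T := by
  rintro G _ _ S C D h ⟨e⟩
  have hSn := h.normal
  have hinj := indHom_injective e h.cent
  obtain ⟨c, hc'⟩ := h.neC
  obtain ⟨d, hd'⟩ := h.neD
  have hci : Function.Injective (MulAut.conj : T →* MulAut T) := by
    rw [← MonoidHom.ker_eq_bot_iff, eq_bot_iff, ← hc]
    intro x hx
    rw [Subgroup.mem_center_iff]
    intro y
    have h1 : MulAut.conj x y = y := by rw [MonoidHom.mem_ker.mp hx]; rfl
    rw [MulAut.conj_apply] at h1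
    calc y * x = (x * y * x⁻¹) * x := by rw [h1]
      _ = x * y := by group
  have key : ∀ c : G, orderOf c = p → ∃ a : T, orderOf a = p ∧ c = ((e.symm a : S) : G) := by
    intro c ho
    obtain ⟨a, ha⟩ := hinn (indHom e c) (by rw [orderOf_injective _ hinj]; exact ho)
    refine ⟨a, ?_, ?_⟩
    · rw [← orderOf_injective _ hci, ← ha, orderOf_injective _ hinj]
      exact ho
    · apply hinj
      rw [indHom_mem, ha]
  obtain ⟨a, ha, rfl⟩ := key c (h.ordC c hc')
  obtain ⟨b, hb, rfl⟩ := key d (h.ordD d hd')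
  obtain ⟨j, hj⟩ := hone a b ha hb
  refine h.false_of_isConj hc' hd' (i := 1) (j := j) ?_ ?_
  · obtain ⟨g, hg⟩ := isConj_iff.mp hj
    refine isConj_iff.mpr ⟨((e.symm g : S) : G), ?_⟩
    rw [pow_one, ← hg]
    simp
  · rw [pow_one]
    exact h.ne_one hc'

end crit

end Cfsg.Agent.H71.Wf
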