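import Cfsg.Agent.H71.Wf.TwFIn
import Cfsg.Agent.H496.Ccp.TwFOut
import Cfsg.Agent.H933.TitsRadThree

/-!
# S3826: the rows `²F₄(q)`, `q ≥ 8`, and the Tits group (helper71, task 4034)

* `wf_2f4` : `WfRow 3 K`, `K ≅ ²F₄(q)`, `q ≥ 8`: every automorphism of order three has a conjugate normalising and not
  centralising `LO = ⟨X_1, X_9⟩ ≅ SL₂(q)`;
* `wf_tits` : `WfRow 3 K`, `K` the Tits group: one class of elements of order three, all automorphisms of order three are
  inner.
-/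

set_option autoImplicit false
set_option linter.unusedSectionVars false

namespace Cfsg.Agent.H71.Wf.TwF

open Subgroup Cfsg Cfsg.Lie
open Cfsg.Agent.SplitTwo Cfsg.Agent.SplitTwo.ZS
open Cfsg.Agent.H823.GateTwo Cfsg.Agent.H823.NfTwF
open Cfsg.Agent.KFacts.TwF4 Cfsg.Agent.TitsThree.RankTwoZ
open Cfsg.Agent.KFacts.TwF4.Inst Cfsg.Agent.KFacts.TwF4.SylU
open Cfsg.Agent.ChevalleyStructure.TwF4.TwistedFix (Rln)
open Cfsg.Agent.H533.Wf

universe u v

section Out

variable {F : Type} [Field F] [Fintype F] {m : ℕ} (hK : Fintype.card F = 2 ^ (2 * m + 1)) [CharP F 2]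
  {φ : F →+* F} (hφ : Rln φ (2 ^ m))

/-- the field automorphisms normalise `LO` -/
theorem fld_LO (τ : F ≃+* F) {l : ↥(twistedF4 F (2 ^ m))} (hl : l ∈ (full hK hφ).LO) :
    S2128.fld τ (2 ^ m) l ∈ (full hK hφ).LO := by
  set S := full hK hφ with hS
  have h1 : S.LO ≤ S.LO.comap (S2128.fld τ (2 ^ m)).toMonoidHom := by
    refine sup_le ?_ ?_
    · intro x hx
      obtain ⟨t, rfl⟩ := (Arc.mem_X1 S).1 hx
      have h2 : S2128.fld τ (2 ^ m) (S.o 0 t) = S.o 0 (τ t) := S2128.fld_ro _ hφ 0 t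
      show S2128.fld τ (2 ^ m) (S.o 0 t) ∈ S.LO
      rw [h2]
      exact mem_sup_left ((Arc.mem_X1 S).2 ⟨_, rfl⟩)
    · intro x hx
      obtain ⟨t, rfl⟩ := (Arc.mem_X9 S).1 hx
      have h2 : S2128.fld τ (2 ^ m) (S.o 4 t) = S.o 4 (τ t) := S2128.fld_ro _ hφ 4 t
      show S2128.fld τ (2 ^ m) (S.o 4 t) ∈ S.LO
      rw [h2]
      exact mem_sup_right ((Arc.mem_X9 S).2 ⟨_, rfl⟩)
  exact h1 hl

/-- a nontrivial field automorphism does not centralise `LO` -/
theorem fld_ne {τ : F ≃+* F} (hτ : τ ≠ 1) : ∃ l ∈ (full hK hφ).LO, S2128.fld τ (2 ^ m) l ≠ l := by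
  set S := full hK hφ with hS
  obtain ⟨t, ht⟩ : ∃ t, τ t ≠ t := by
    by_contra hcon
    push Not at hcon
    exact hτ (RingEquiv.ext hcon)
  refine ⟨S.o 0 t, mem_sup_left ((Arc.mem_X1 S).2 ⟨_, rfl⟩), ?_⟩
  have h2 : S2128.fld τ (2 ^ m) (S.o 0 t) = S.o 0 (τ t) := S2128.fld_ro _ hφ 0 t
  rw [h2]
  intro h
  exact ht (S.injO _ h)

end Out

section Row

variable {F : Type} [Field F] [Fintype F] {m : ℕ}

theorem wf_tw (hm : 1 ≤ m) (hK : Fintype.card F = 2 ^ (2 * m + 1)) [IsSimpleGroup ↥(twistedF4 F (2 ^ m))] :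
    WfRow.{u, 0} 3 ↥(twistedF4 F (2 ^ m)) := by
  have hf3 : Fact (Nat.Prime 3) := ⟨Nat.prime_three⟩
  have hf2 : Fact (Nat.Prime 2) := ⟨Nat.prime_two⟩
  have hch : CharP F 2 := Cfsg.Agent.ChevalleyStructure.F4Fixed.charP_two hK
  have hfin : Finite ↥(twistedF4 F (2 ^ m)) := inferInstance
  obtain ⟨φ, hφ⟩ := Cfsg.Agent.ChevalleyStructure.TwF4.TwistedFix.exists_rln hK
  have hF := H160.TwF3.Row.exists_unit hm hK
  obtain ⟨P, hB, hN, hirr, hPS0⟩ := Cfsg.Agent.ChevalleyStructure.TwF4.BNIrred.exists_bnPair_irreducible hφ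
  set S := full hK hφ with hSdef
  have hR : S.R.p = 2 := rfl
  have hU : Cfsg.Agent.Schreier.TwFFour.U0 F (2 ^ m) = J S.XZ 1 8 := by
    rw [Cfsg.Agent.KFacts.TwF4.Inst.U0_eq hφ]
    apply le_antisymm
    · refine iSup₂_le fun k hk => ?_
      have h1 : S.XZ (k : ℤ) ≤ J S.XZ 1 8 := X_le_J (by exact_mod_cast hk.1) (by exact_mod_cast hk.2)
      refine le_trans (le_of_eq ?_) h1
      show S.R.X ((k : ℕ) : ZMod (2 * 8)) = S.R.X (((k : ℕ) : ℤ) : ZMod (2 * 8))
      rw [Int.cast_natCast]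
    · refine J_le fun k h1 h2 => ?_
      obtain ⟨n, rfl⟩ := Int.eq_ofNat_of_zero_le (show 0 ≤ k by omega)
      have h3 := le_iSup₂ (f := fun (k : ℕ) (_ : k ∈ Set.Icc (1 : ℕ) 8) =>
        Cfsg.Agent.Octagon.KSys.XX F (2 ^ m) ((k : ℕ) : ZMod (2 * 8))) n ⟨by exact_mod_cast h1, by exact_mod_cast h2⟩
      refine le_trans (le_of_eq ?_) h3
      show S.R.X (((n : ℕ) : ℤ) : ZMod (2 * 8)) = S.R.X ((n : ℕ) : ZMod (2 * 8))
      rw [Int.cast_natCast]
  have hPB : P.B = normalizer (J S.XZ 1 8 : Set ↥(twistedF4 F (2 ^ m))) := by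
    rw [← hU, Cfsg.Agent.KFacts.TwF4.Inst.U0_normal_B hφ, hB]
    rfl
  have hPS : P.S = {S.n1, S.n2} := hPS0
  have h12 : S.n1 ≠ S.n2 := by
    intro h
    obtain ⟨y, hy, hy1⟩ := S.zsys8.exists_ne 1
    have h1 := S.n1_refl.mem' (k := 9) hy (by norm_num)
    have h2 := S.n2_refl.mem' (k := 7) hy (by norm_num)
    rw [← h] at h2
    have h3 := S.X_inf_near (i := 7) (j := 9) (by norm_num) (by norm_num) h2 h1
    exact hy1 (conj_eq_one_iff.1 h3)
  have hq : Nat.card F = 2 ^ (2 * m + 1) := by rw [Nat.card_eq_fintype_card, hK]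
  have h4 : 4 ≤ Nat.card F := by
    rw [hq]
    calc 4 ≤ 2 ^ 3 := by norm_num
      _ ≤ _ := Nat.pow_le_pow_right (by norm_num) (by omega)
  refine WfRow.of_local (qs_LO S h4 hF) (LO_ne_top S hF) fun x hx => ?_
  rcases H496.Ccp.TwFOut.out hK hm Nat.prime_three (by norm_num) x hx with ⟨a, rfl⟩ | ⟨i, w, τ, hi, -, hτ, hw⟩
  · -- inner
    have hc : Function.Injective (MulAut.conj : ↥(twistedF4 F (2 ^ m)) →* MulAut ↥(twistedF4 F (2 ^ m))) := by
      rw [injective_iff_map_eq_one]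
      intro z hz
      by_contra hz1
      have hzc : z ∈ center ↥(twistedF4 F (2 ^ m)) := by
        rw [mem_center_iff]
        intro y
        have h1 : MulAut.conj z y = y := by rw [hz]; rfl
        rw [MulAut.conj_apply] at h1
        calc y * z = (z * y * z⁻¹) * z := by rw [h1]
          _ = z * y := by group
      rcases (inferInstance : (center ↥(twistedF4 F (2 ^ m))).Normal).eq_bot_or_eq_top with h1 | h1
      · rw [h1, mem_bot] at hzc
        exact hz1 hzc
      · have h2 := qs_LO S h4 hF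
        apply h2.not_le_centralizer
        intro l _
        rw [mem_centralizer_iff]
        intro y _
        have h3 : l ∈ center ↥(twistedF4 F (2 ^ m)) := by rw [h1]; exact mem_top _
        exact mem_center_iff.1 h3 y
    have ha : orderOf a = 3 := by
      rw [← hx]
      exact (orderOf_injective _ hc a).symm
    obtain ⟨g, hg⟩ := conj_LO S hPB hPS hF hR hirr h12 hq ha
    have e : MulAut.conj g * MulAut.conj a * (MulAut.conj g)⁻¹ = MulAut.conj (g * a * g⁻¹) := by
      rw [map_mul, map_mul, map_inv]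
    refine ⟨g, fun l hl => ?_, ?_⟩
    · rw [e, MulAut.conj_apply]
      exact mul_mem (mul_mem hg hl) (inv_mem hg)
    · rw [e]
      by_contra hcon
      push Not at hcon
      have hs := H240.BalTwF.simple_LO S h4
      have h2 : (⟨g * a * g⁻¹, hg⟩ : S.LO) ∈ center S.LO := by
        rw [mem_center_iff]
        rintro ⟨l, hl⟩
        apply Subtype.ext
        have h3 := hcon l hl
        rw [MulAut.conj_apply] at h3
        show l * (g * a * g⁻¹) = (g * a * g⁻¹) * l
        calc l * (g * a * g⁻¹) = ((g * a * g⁻¹) * l * (g * a * g⁻¹)⁻¹) * (g * a * g⁻¹) := by rw [h3]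
          _ = (g * a * g⁻¹) * l := by group
      rcases (inferInstance : (center S.LO).Normal).eq_bot_or_eq_top with h1 | h1
      · rw [h1, mem_bot] at h2
        have h3 : g * a * g⁻¹ = 1 := congrArg Subtype.val h2
        rw [conj_eq_one_iff] at h3
        rw [h3, orderOf_one] at ha
        omega
      · apply (qs_LO S h4 hF).not_le_centralizer
        intro l hl
        rw [mem_centralizer_iff]
        intro y hy
        have h3 : (⟨l, hl⟩ : S.LO) ∈ center S.LO := by rw [h1]; exact mem_top _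
        exact congrArg Subtype.val (mem_center_iff.1 h3 ⟨y, hy⟩)
  · -- field type
    set y := MulAut.conj w * x * (MulAut.conj w)⁻¹ with hy
    have hyi : y ^ i = S2128.fld τ (2 ^ m) := by rw [hy, conj_pow, hw]
    have hy3 : orderOf y = 3 := by
      have e : y = MulAut.conj (MulAut.conj w) x := by rw [MulAut.conj_apply]
      rw [e, ← hx]
      exact orderOf_injective (MulAut.conj (MulAut.conj w)).toMonoidHom (MulAut.conj (MulAut.conj w)).injective x
    have hk : ∃ k : ℕ, (y ^ i) ^ k = y := by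
      have h1 : (orderOf y).Coprime i := by rw [hy3]; exact hi.symm
      obtain ⟨k, hk⟩ := exists_pow_eq_self_of_coprime (n := i) h1.symm
      exact ⟨k, hk⟩
    obtain ⟨k, hk⟩ := hk
    have hpow : ∀ n : ℕ, ∀ l ∈ S.LO, ((S2128.fld τ (2 ^ m)) ^ n) l ∈ S.LO := by
      intro n
      induction n with
      | zero => intro l hl; exact hl
      | succ n ih =>
        intro l hl
        rw [pow_succ, MulAut.mul_apply]
        exact ih _ (fld_LO hK hφ τ hl)
    refine ⟨w, fun l hl => ?_, ?_⟩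
    · rw [← hy, ← hk, hyi]
      exact hpow k l hl
    · rw [← hy]
      by_contra hcon
      push Not at hcon
      have h1 : ∀ n : ℕ, ∀ l ∈ S.LO, (y ^ n) l = l := by
        intro n
        induction n with
        | zero => intro l _; rfl
        | succ n ih =>
          intro l hl
          rw [pow_succ, MulAut.mul_apply, hcon l hl]
          exact ih l hl
      obtain ⟨l, hl, h2⟩ := fld_ne hK hφ hτ
      apply h2
      rw [← hyi]
      exact h1 i l hl

/-- **The row `²F₄(q)`, `q ≥ 8`.** -/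
theorem wf_2f4 {K : Type v} [Group K] [Finite K] [hs : IsSimpleGroup K] (h : Cfsg.Lie.Iso2F4 K) :
    WfRow.{u, v} 3 K := by
  obtain ⟨F, _, _, m, hm, hcard, ⟨e⟩⟩ := h
  have hsim : IsSimpleGroup ↥(twistedF4 F (2 ^ m)) := e.symm.isSimpleGroup
  exact WfRow.congr' e (wf_tw hm hcard)

/-- **The row of the Tits group.** -/
theorem wf_tits {K : Type v} [Group K] [Finite K] [hs : IsSimpleGroup K] (h : Cfsg.Lie.IsoTits K) :
    WfRow.{u, v} 3 K := by
  have hf3 : Fact (Nat.Prime 3) := ⟨Nat.prime_three⟩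
  have hc : center K = ⊥ := Cfsg.Agent.CpAutTits.Row.center_bot (Cfsg.Agent.CpAutTits.Row.out h)
  refine WfRow.of_one hc (Cfsg.Agent.CpAutTits.Row.autInner h Nat.prime_three (by norm_num)) fun a b ha hb => ⟨1, ?_⟩
  obtain ⟨t, v, h1, h2, h3, h4, h5⟩ := Cfsg.Agent.H933.TitsRadThree.prop3_iso h
  rw [pow_one]
  exact (h5 b hb).trans (h5 a ha).symm

end Row

end Cfsg.Agent.H71.Wf.TwF
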